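import Cfsg.Agent.LX.WC7
import Cfsg.Agent.LX.Idx
import Cfsg.Agent.Trans.Fus

/-!
# Abelian quotients of the centralizer of a large extraspecial involution: control of fusion
-/

set_option autoImplicit false

namespace Cfsg.Lib.LX

open Subgroup Cfsg.Lib.Local Cfsg.Lib.Solv Cfsg.Lib.Trans
open scoped Pointwise commutatorElement

universe u

variable {G : Type u} [Group G] {z : G} {A : Type*} [CommGroup A]

/-- A homomorphism on the centralizer of `z`, transported to all conjugates of `z`. -/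
structure Fam (z : G) (A : Type*) [CommGroup A] where
  φ : G → G → A
  mul : ∀ {w x y}, IsConj z w → x * w = w * x → y * w = w * y → φ w (x * y) = φ w x * φ w y
  conj : ∀ {w x} (g), IsConj z w → x * w = w * x → φ (g * w * g⁻¹) (g * x * g⁻¹) = φ w x

theorem exists_fam (f : centralizer ({z} : Set G) →* A) :
    ∃ Φ : Fam z A, ∀ x : centralizer ({z} : Set G), Φ.φ z x = f x := by
  classical
  let F : G → A := fun x => if h : x ∈ centralizer ({z} : Set G) then f ⟨x, h⟩ else 1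
  have F0 : ∀ x : centralizer ({z} : Set G), F x = f x := fun x => dif_pos x.2
  have F1 : ∀ k ∈ centralizer ({z} : Set G), ∀ x ∈ centralizer ({z} : Set G),
      F (k * x * k⁻¹) = F x := fun k hk x hx => by
    rw [F0 ⟨x, hx⟩, ← mul_inv_cancel_comm (f ⟨k, hk⟩) (f _), ← map_inv, ← map_mul, ← map_mul]
    exact F0 (⟨k, hk⟩ * ⟨x, hx⟩ * ⟨k, hk⟩⁻¹)
  let c : G → G := fun w => Classical.epsilon fun g => g * z * g⁻¹ = w
  have c1 : ∀ {w}, IsConj z w → c w * z * (c w)⁻¹ = w := fun h =>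
    Classical.epsilon_spec (isConj_iff.1 h)
  have c2 : ∀ {w x}, IsConj z w → x * w = w * x → (c w)⁻¹ * x * c w ∈ centralizer ({z} : Set G) :=
    fun {w x} h hx => mem_cent_iff_conj.2 (by
      rw [show ∀ a : G, a⁻¹ * x * a * z * (a⁻¹ * x * a)⁻¹ = a⁻¹ * (x * (a * z * a⁻¹) * x⁻¹) * a by
        intros; group, c1 h, hx, mul_inv_cancel_right, mul_assoc, inv_mul_eq_iff_eq_mul,
        ← mul_inv_eq_iff_eq_mul.1 (c1 h)])
  refine ⟨⟨fun w x => F ((c w)⁻¹ * x * c w), fun {w x y} h hx hy => ?_, fun {w x} g h hx => ?_⟩,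
    fun x => ?_⟩
  · rw [F0 ⟨_, c2 h hx⟩, F0 ⟨_, c2 h hy⟩, ← map_mul, ← F0]
    exact congrArg F (by simp [mul_assoc])
  · have h' := c1 (h.trans (isConj_conj g w))
    rw [← F1 ((c (g * w * g⁻¹))⁻¹ * g * c w) (mem_cent_iff_conj.2 (by
      rw [show ∀ a b : G, a⁻¹ * g * b * z * (a⁻¹ * g * b)⁻¹ = a⁻¹ * (g * (b * z * b⁻¹) * g⁻¹) * a by
        intros; group, c1 h]
      nth_rewrite 2 [← h']; group)) _ (c2 h hx)]
    exact congrArg F (by group)
  · rw [← F0, ← F1 _ (inv_mem (mem_cent_iff_conj.2 (c1 (IsConj.refl z)))) _ x.2, inv_inv]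

namespace Fam

variable (Φ : Fam z A) {u w x y : G}

theorem one (h : IsConj z w) : Φ.φ w 1 = 1 := by
  have := Φ.mul h (by simp : 1 * w = w * 1) (by simp : 1 * w = w * 1)
  rwa [mul_one, left_eq_mul] at this

theorem inv (h : IsConj z w) (hx : x * w = w * x) : Φ.φ w x⁻¹ = (Φ.φ w x)⁻¹ := by
  rw [eq_inv_iff_mul_eq_one, ← Φ.mul h (Commute.inv_left hx).eq hx, inv_mul_cancel, Φ.one h]

theorem conj' (h : IsConj z w) (hx : x * w = w * x) (hy : y * w = w * y) :
    Φ.φ w (y * x * y⁻¹) = Φ.φ w x := by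
  have := Φ.conj y h hx
  rwa [hy, mul_inv_cancel_right] at this

theorem comm (h : IsConj z w) (hx : x * w = w * x) (hy : y * w = w * y) : Φ.φ w ⁅x, y⁆ = 1 := by
  rw [commutatorElement_def, Φ.mul h (Commute.mul_left (Commute.mul_left hx hy)
    (Commute.inv_left hx)).eq (Commute.inv_left hy).eq, Φ.conj' h hy hx, Φ.inv h hy, mul_inv_cancel]

/-- The kernel on a subgroup of the centralizer. -/
def ker (h : IsConj z w) : Subgroup G where
  carrier := {x | x * w = w * x ∧ Φ.φ w x = 1}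
  one_mem' := ⟨by simp, Φ.one h⟩
  mul_mem' := fun ⟨a, b⟩ ⟨c, d⟩ => ⟨(Commute.mul_left a c).eq, by rw [Φ.mul h a c, b, d, mul_one]⟩
  inv_mem' := fun ⟨a, b⟩ => ⟨(Commute.inv_left a).eq, by rw [Φ.inv h a, b, inv_one]⟩

variable [Finite G]

theorem _root_.Cfsg.Lib.LX.exists_conj_ge (h : PreLX (qOf z) z) {P : Subgroup G}
    (hP : IsPGroup 2 P) : ∃ u, IsConj z u ∧ P ≤ centralizer ({u} : Set G) := by
  have : Fact (Nat.Prime 2) := ⟨Nat.prime_two⟩
  obtain ⟨T, hT, h1⟩ := exists_isSylowIn_ge h.isPGroup (le_top (a := qOf z))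
  obtain ⟨g, -, hg⟩ := hT.exists_cj_le hP le_top
  refine ⟨_, isConj_conj g⁻¹ z, fun p hp => mem_cent_iff_conj.2 ?_⟩
  have := mem_cent_iff_conj.1 (h.le_cent_of_isPGroup hT.isPGroup h1 (hg (conj_mem_cj.2 hp)))
  nth_rewrite 2 [← this]; group

/-- The values on a 2-subgroup do not depend on the conjugate of `z`. -/
theorem eq_of (h : PreLX (qOf z) z) (H : ∀ u w f, IsConj z u → IsConj z w → w * u = u * w →
    f ∈ qOf w → f * u = u * f → Φ.φ u f = 1) (P : Subgroup G) : IsPGroup 2 P →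
    ∀ u w, IsConj z u → IsConj z w → P ≤ centralizer ({u} : Set G) →
      P ≤ centralizer ({w} : Set G) → ∀ p ∈ P, Φ.φ u p = Φ.φ w p := by
  have : Fact (Nat.Prime 2) := ⟨Nat.prime_two⟩
  induction P using WellFoundedGT.induction with
  | ind P ih =>
  intro hP
  have pre : ∀ {u}, IsConj z u → PreLX (qOf u) u := fun hu => h.qOf_of_conj (isConj_iff.1 hu)
  set N := normalizer (P : Set G)
  have cN : ∀ {g u}, g ∈ N → P ≤ centralizer ({u} : Set G) →
      P ≤ centralizer ({g * u * g⁻¹} : Set G) := fun {g u} hg hu p hp => mem_cent_iff_conj.2 (by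
    have := mem_cent_iff_conj.1 (hu (conj_mem_of_mem_normalizer (inv_mem hg) hp))
    nth_rewrite 2 [← this]; group)
  let Y : Subgroup G :=
    { carrier := {g | g ∈ N ∧ ∀ w, IsConj z w → P ≤ centralizer ({w} : Set G) → ∀ p ∈ P,
        Φ.φ w (g * p * g⁻¹) = Φ.φ w p}
      one_mem' := ⟨one_mem _, fun _ _ _ _ _ => by simp⟩
      mul_mem' := fun {a b} ⟨a1, a2⟩ ⟨b1, b2⟩ => ⟨mul_mem a1 b1, fun w h1 h2 p hp => by
        rw [← b2 w h1 h2 p hp, ← a2 w h1 h2 _ (conj_mem_of_mem_normalizer b1 hp)]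
        exact congrArg _ (by group)⟩
      inv_mem' := fun {a} ⟨a1, a2⟩ => ⟨inv_mem a1, fun w h1 h2 p hp => by
        rw [← a2 w h1 h2 _ (conj_mem_of_mem_normalizer (inv_mem a1) hp)]
        exact congrArg _ (by group)⟩ }
  have YN : N ≤ normalizer (Y : Set G) := fun n hn => mem_normalizer_fintype fun g ⟨g1, g2⟩ =>
    ⟨mul_mem (mul_mem hn g1) (inv_mem hn), fun w h1 h2 p hp => by
      have q := conj_mem_of_mem_normalizer (inv_mem hn) hp
      have h3 := cN (inv_mem hn) h2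
      have h4 := h1.trans (isConj_conj n⁻¹ w)
      have := (Φ.conj n h4 (mem_C.1 (h3 (conj_mem_of_mem_normalizer g1 q)))).trans
        ((g2 _ h4 h3 _ q).trans (Φ.conj n h4 (mem_C.1 (h3 q))).symm)
      simpa [mul_assoc] using this⟩
  have PY : P ≤ Y := fun g hg => ⟨le_normalizer hg, fun w h1 h2 p hp =>
    Φ.conj' h1 (mem_C.1 (h2 hp)) (mem_C.1 (h2 hg))⟩
  intro u w hu hw Pu Pw
  by_cases h0 : ∃ v, IsConj z v ∧ P ≤ centralizer ({v} : Set G) ∧ qOf v ≤ P
  · obtain ⟨v, v1, -, v3⟩ := h0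
    have : ∀ a, IsConj z a → P ≤ centralizer ({a} : Set G) → a = v := fun a a1 a2 =>
      ((pre v1).mem_iff.1 ((pre v1).cent fun q hq => mem_C.1 (a2 (v3 hq)))).resolve_left
        (pre a1).ne_one
    rw [this u hu Pu, this w hw Pw]
    exact fun _ _ => rfl
  have gr : ∀ v, IsConj z v → P ≤ centralizer ({v} : Set G) → IsPGroup 2 ↥((P ⊔ qOf v) ⊓ N) ∧
      P < (P ⊔ qOf v) ⊓ N := fun v v1 v2 => by
    have := hP.to_sup_of_normal_right' (pre v1).isPGroup (v2.trans (pre v1).norm)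
    exact ⟨this.to_inf_left, lt_inf_normalizer this (left_lt_sup.2 fun c => h0 ⟨v, v1, v2, c⟩)⟩
  obtain ⟨X, X1, X2, X3⟩ : ∃ X : Subgroup G, IsPGroup 2 X ∧ P < X ∧ X ≤ Y := by
    by_cases h1 : ∃ v, IsConj z v ∧ P ≤ centralizer ({v} : Set G) ∧ v ∉ P
    · obtain ⟨v, v1, v2, v3⟩ := h1
      have c : ∀ p ∈ P, v * p * v⁻¹ = p := fun p hp => by
        rw [← mem_C.1 (v2 hp), mul_inv_cancel_right]
      have vN : v ∈ N := mem_normalizer_fintype fun p hp => (c p hp).symm ▸ hp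
      exact ⟨P ⊔ zpowers v, hP.to_sup_of_normal_left'
        ((pre v1).isPGroup.to_le (pre v1).zpowers_le) (zpowers_le.2 vN),
        left_lt_sup.2 fun c => v3 (c (mem_zpowers v)),
        sup_le PY (zpowers_le.2 ⟨vN, fun w _ _ p hp => by rw [c p hp]⟩)⟩
    push Not at h1
    refine ⟨_, (gr u hu Pu).1, (gr u hu Pu).2, fun g hg => ?_⟩
    obtain ⟨g1, g2⟩ := mem_inf.1 hg
    rw [← SetLike.mem_coe, coe_mul_of_left_le_normalizer_right _ _ (Pu.trans (pre hu).norm)] at g1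
    obtain ⟨a, ha, e, he, rfl⟩ := g1
    have eN : e ∈ N := (mul_mem_cancel_left (le_normalizer ha)).1 g2
    refine mul_mem (PY ha) ⟨eN, fun v v1 v2 p hp => ?_⟩
    have m : e * p * e⁻¹ * p⁻¹ ∈ P := mul_mem (conj_mem_of_mem_normalizer eN hp) (inv_mem hp)
    rw [← inv_mul_cancel_right (e * p * e⁻¹) p, Φ.mul v1 (mem_C.1 (v2 m)) (mem_C.1 (v2 hp)),
      H v u _ v1 hu (mem_C.1 (v2 (h1 u hu Pu))) (by
        rw [mul_assoc, mul_assoc, ← mul_assoc p]
        exact mul_mem he (conj_mem_of_mem_normalizer ((pre hu).norm (Pu hp)) (inv_mem he)))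
        (mem_C.1 (v2 m)), one_mul]
  have key : ∀ v, IsConj z v → P ≤ centralizer ({v} : Set G) → ∃ R v', IsSylowIn 2 R Y ∧ P < R ∧
      IsConj z v' ∧ R ≤ centralizer ({v'} : Set G) ∧ ∀ p ∈ P, Φ.φ v p = Φ.φ v' p := by
    intro v v1 v2
    obtain ⟨g1, g2⟩ := gr v v1 v2
    obtain ⟨S, S1, S2⟩ := exists_isSylowIn_ge g1 inf_le_right
    obtain ⟨v', w1, w2⟩ := exists_conj_ge h S1.isPGroup
    have R := S1.inf_normal_of_le YN fun _ k => k.1
    refine ⟨_, v', R, lt_of_le_of_ne (le_inf (g2.le.trans S2) PY) fun c => ?_, w1,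
      inf_le_left.trans w2, fun p hp => ih _ g2 g1 v v' v1 w1
        (inf_le_left.trans (sup_le v2 (pre v1).le_cent)) (S2.trans w2) p (g2.le hp)⟩
    exact (Trans.card_lt_of_lt X2).not_ge (c ▸ R.card_le X1 X3)
  obtain ⟨R, u', R1, R2, u1, u2, u3⟩ := key u hu Pu
  obtain ⟨R', w', R1', R2', w1, w2, w3⟩ := key w hw Pw
  obtain ⟨y, hy, e⟩ := R1'.exists_cj_eq R1
  intro p hp
  have q := conj_mem_of_mem_normalizer hy.1 hp
  rw [u3 p hp, w3 p hp, ← Φ.conj y u1 (mem_C.1 (u2 (R2.le hp))), ← hy.2 w' w1 (R2'.le.trans w2) p hp]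
  refine ih _ R2' R1'.isPGroup _ _ (u1.trans (isConj_conj y u')) w1 (fun r hr => ?_) w2 _ (R2'.le q)
  have := mem_cent_iff_conj.1 (u2 (mem_cj.1 (e.ge hr)))
  exact mem_cent_iff_conj.2 (by nth_rewrite 2 [← this]; group)

theorem eq_one (hG : pResidual 2 G = ⊤) (h : PreLX (qOf z) z) (H : ∀ u w f, IsConj z u →
    IsConj z w → w * u = u * w → f ∈ qOf w → f * u = u * f → Φ.φ u f = 1) {k : ℕ}
    (hx : x * z = z * x) (hk : x ^ 2 ^ k = 1) : Φ.φ z x = 1 := by
  have : Fact (Nat.Prime 2) := ⟨Nat.prime_two⟩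
  obtain ⟨T, hT, h1⟩ := exists_isSylowIn_ge (PG.isPGroup_zpowers hk) (le_top (a := zpowers x))
  obtain ⟨u, u1, u2⟩ := exists_conj_ge h hT.isPGroup
  rw [Φ.eq_of h H _ (PG.isPGroup_zpowers hk) z u (IsConj.refl z) u1 (zpowers_le.2 (mem_C.2 hx))
    (h1.trans u2) x (mem_zpowers x)]
  refine (hT.inf_commutator_le (F := Φ.ker u1) (fun b hb g _ hg => ?_)
    ⟨h1 (mem_zpowers x), ?_⟩).2
  · have a := mem_C.1 (u2 hb)
    have c := mem_C.1 (u2 hg)
    refine ⟨(Commute.mul_left (Commute.inv_left a) c).eq, ?_⟩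
    rw [Φ.mul u1 (Commute.inv_left a).eq c, Φ.inv u1 a, inv_mul_eq_one, ← Φ.conj g u1 a]
    exact Φ.eq_of h H _ (hT.isPGroup.to_le (zpowers_le.2 hg)) _ _ (u1.trans (isConj_conj g u)) u1
      (zpowers_le.2 (mem_C.2 (by rw [conj_mul, conj_mul, a]))) ((zpowers_le.2 hg).trans u2) _
      (mem_zpowers _)
  · have : ∀ g ∈ pResidual 2 G, (orderOf (Abelianization.of g)).Coprime 2 := fun g hg => by
      induction hg using closure_induction with
      | mem g hg => exact Nat.Coprime.coprime_dvd_left (orderOf_map_dvd _ g) hg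
      | one => simp
      | mul a b _ _ ha hb =>
        rw [map_mul]
        exact (ha.mul_left hb).coprime_dvd_left (Commute.all _ _).orderOf_mul_dvd_mul_orderOf
      | inv a _ ha => rwa [map_inv, orderOf_inv]
    exact (Abelianization.ker_of G).le (orderOf_eq_one_iff.1
      (((this x (hG.ge (mem_top x))).pow_right k).eq_one_of_dvd
      (orderOf_dvd_of_pow_eq_one (by rw [← map_pow, hk, map_one]))))

end Fam

end Cfsg.Lib.LX
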