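import Cfsg.Agent.LXG.F1

/-!
# The abelianization of the centralizer of a large extraspecial involution
-/

set_option autoImplicit false

namespace Cfsg.Lib.LX

open Subgroup Cfsg.Lib.Local Cfsg.Lib.Solv Cfsg.Lib.Trans
open scoped Pointwise commutatorElement

universe u

variable {G : Type u} [Group G] {z u w f : G} {A : Type*} [CommGroup A]

/-- The centralizer of the involution `u` in the extraspecial group of `w` is abelian of
exponent four. -/
structure AbC (w u f : G) : Prop where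
  pre : PreLX (qOf w) w
  uw : u * w = w * u
  uu : u * u = 1
  ab : ∀ a ∈ qOf w, a * u = u * a → ∀ b ∈ qOf w, b * u = u * b → a * b = b * a
  mem : f ∈ qOf w
  fu : f * u = u * f
  ff : f * f = w

namespace AbC

theorem conj (h : AbC w u f) (g : G) : AbC (g * w * g⁻¹) (g * u * g⁻¹) (g * f * g⁻¹) where
  pre := h.pre.qOf_of_conj ⟨g, rfl⟩
  uw := by rw [conj_mul, conj_mul, h.uw]
  uu := by rw [conj_mul, h.uu]; simp
  ab := fun a ha c b hb d => by
    obtain ⟨a, rfl⟩ := (MulAut.conj g).surjective a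
    obtain ⟨b, rfl⟩ := (MulAut.conj g).surjective b
    simp only [MulAut.conj_apply, conj_mul, mul_left_inj, mul_right_inj, mem_qOf_conj_iff] at *
    exact h.ab a ha c b hb d
  mem := mem_qOf_conj h.mem
  fu := by rw [conj_mul, conj_mul, h.fu]
  ff := by rw [conj_mul, h.ff]

variable {V : Type*} [AddCommGroup V] [Module (ZMod 2) V] [Finite V]

theorem main (h : AbC w u f) (S : Sh (qOf w) w V) : (∃ g ∈ qOf w, g * u * g⁻¹ = w * u) ∧
    (∀ a ∈ qOf w, a * u = u * a → a * a = 1 → IsConj u (u * a)) ∧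
    ∀ v, (∀ a ∈ qOf w, a * u = u * a → S.b (S.π a) v = 0) →
      ∃ a ∈ qOf w, a * u = u * a ∧ S.π a = v := by
  have hu := mem_C.2 h.uw
  have h2 : u * u ∈ qOf w := h.uu ▸ one_mem _
  have ui := inv_eq_of_mul_eq_one_right h.uu
  have cj : ∀ y, y * u * y⁻¹ = u * ⁅u, y⁆ := fun y => by
    rw [commutatorElement_def, ui, ← mul_assoc, ← mul_assoc, ← mul_assoc, h.uu, one_mul]
  have qf := (S.q_π_one h.mem).2 h.ff
  have bF : ∀ a ∈ qOf w, a * u = u * a → ∀ b ∈ qOf w, b * u = u * b → S.b (S.π a) (S.π b) = 0 :=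
    fun a ha c b hb d => (S.b_π _ ha _ hb).2 (h.ab a ha c b hb d)
  have qU : ∀ a ∈ qOf w, a * u = u * a → ∀ v, S.N u v = S.π a → S.q (S.π a) = 0 := by
    intro a ha c v e
    obtain ⟨y, hy, rfl⟩ := S.π_surj v
    have hj := S.comm_mem hu hy
    rw [S.N_π hu hy] at e
    have c' : u * ⁅u, y⁆ = ⁅u, y⁆ * u := by
      rcases (S.π_eq_iff ha hj).1 e.symm with r | r <;> rw [r]
      exacts [c.symm, (Commute.mul_left c h.uw.symm).eq.symm]
    have t : u * ⁅u, y⁆ * (u * ⁅u, y⁆) = 1 := by rw [← cj, conj_mul, h.uu]; simp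
    rwa [mul_assoc, ← mul_assoc _ u, ← c', mul_assoc, ← mul_assoc, h.uu, one_mul, ← S.q_π _ hj,
      e] at t
  have ker : ∀ v, S.N u v = 0 → ∃ x ∈ qOf w, S.π x = v ∧ (x * u = u * x ∨ x * u * x⁻¹ = w * u) := by
    intro v hv
    obtain ⟨x, hx, rfl⟩ := S.π_surj v
    rw [S.N_π hu hx, S.π_eq_zero' (S.comm_mem hu hx)] at hv
    exact ⟨x, hx, rfl, hv.imp (fun c => (commutatorElement_eq_one_iff_mul_comm.1 c).symm)
      fun c => by rw [cj, c, h.uw]⟩
  obtain ⟨g, hg, e⟩ : ∃ g ∈ qOf w, g * u * g⁻¹ = w * u := by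
    by_contra! k
    obtain ⟨v, hv⟩ := S.exists_N_eq hu h2 (v := S.π f) fun v hv => by
      obtain ⟨x, hx, rfl, c⟩ := ker v hv
      exact bF x hx (c.resolve_right (k x hx)) f h.mem h.fu
    exact zero_ne_one ((qU f h.mem h.fu v hv).symm.trans qf)
  have gx : ∀ x, x * u * x⁻¹ = w * u → x ∈ qOf w → x * g * u = u * (x * g) := fun x c hx => by
    rw [← mul_inv_eq_iff_eq_mul, show x * g * u * (x * g)⁻¹ = x * (g * u * g⁻¹) * x⁻¹ by group, e,
      ← conj_mul, c, h.pre.central x hx, mul_inv_cancel_right, ← mul_assoc, h.pre.mul_self, one_mul]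
  have K : ∀ v, (∀ a ∈ qOf w, a * u = u * a → S.b (S.π a) v = 0) → S.b (S.π g) v = 0 →
      ∃ y, S.N u y = v := fun v h1 h3 => S.exists_N_eq hu h2 fun y hy => by
    obtain ⟨x, hx, rfl, c | c⟩ := ker y hy
    · exact h1 x hx c
    · have := h1 _ (mul_mem hx hg) (gx x c hx)
      rwa [S.π_mul _ hx _ hg, map_add, LinearMap.add_apply, h3, add_zero] at this
  have gf : S.b (S.π g) (S.π f) = 1 := z2_ne_zero.1 fun c => by
    obtain ⟨v, hv⟩ := K _ (fun a ha c => bF a ha c f h.mem h.fu) c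
    exact zero_ne_one ((qU f h.mem h.fu v hv).symm.trans qf)
  have K' : ∀ v, (∀ a ∈ qOf w, a * u = u * a → S.b (S.π a) v = 0) → S.b (S.π g) v = 1 →
      ∃ y, S.N u y = v + S.π f := fun v h1 h3 => K _
    (fun a ha c => by rw [map_add, h1 a ha c, bF a ha c f h.mem h.fu, add_zero])
    (by rw [map_add, h3, gf]; rfl)
  have U : ∀ y, ∃ a ∈ qOf w, a * u = u * a ∧ S.π a = S.N u y := fun y => by
    obtain ⟨x, hx, r, c | c⟩ := ker _ (S.N_N hu h2 y)
    · exact ⟨x, hx, c, r⟩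
    · have := bF _ (mul_mem hx hg) (gx x c hx) f h.mem h.fu
      rw [S.π_mul _ hx _ hg, map_add, LinearMap.add_apply, gf, r, S.b_N' hu h2,
        S.N_π_of_comm hu h.mem h.fu.symm, map_zero] at this
      exact absurd this (by decide)
  refine ⟨⟨g, hg, e⟩, fun a ha c a2 => ?_, fun v hv => ?_⟩
  · rcases z2_cases (S.b (S.π g) (S.π a)) with r | r
    · obtain ⟨v, hv⟩ := K _ (fun b hb d => bF b hb d a ha c) r
      obtain ⟨y, hy, rfl⟩ := S.π_surj v
      rw [S.N_π hu hy, eq_comm, S.π_eq_iff ha (S.comm_mem hu hy)] at hv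
      refine isConj_iff.2 (hv.elim (fun k => ⟨y, by rw [cj, k]⟩) fun k => ⟨g * y, ?_⟩)
      rw [show g * y * u * (g * y)⁻¹ = g * (y * u * y⁻¹) * g⁻¹ by group, cj, k, ← conj_mul,
        ← conj_mul, e, (S.b_π _ hg _ ha).1 r, h.pre.central g hg, mul_inv_cancel_right,
        mul_inv_cancel_right, h.pre.central a ha, ← h.uw, mul_assoc u, ← mul_assoc w,
        h.pre.mul_self, one_mul]
    · obtain ⟨v, hv⟩ := K' _ (fun b hb d => bF b hb d a ha c) r
      rw [← S.π_mul _ ha _ h.mem] at hv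
      have := qU _ (mul_mem ha h.mem) (Commute.mul_left c h.fu).eq v hv
      rw [S.π_mul _ ha _ h.mem, S.q_add, qf, (S.q_π a ha).2 a2, bF a ha c f h.mem h.fu] at this
      exact absurd this (by decide)
  · rcases z2_cases (S.b (S.π g) v) with r | r
    · obtain ⟨y, rfl⟩ := K v hv r
      exact U y
    · obtain ⟨y, hy⟩ := K' v hv r
      obtain ⟨a, ha, c, r⟩ := U y
      exact ⟨_, mul_mem ha h.mem, (Commute.mul_left c h.fu).eq, by
        rw [S.π_mul _ ha _ h.mem, r, hy, add_assoc, add_self', add_zero]⟩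

variable [Finite G]

theorem not_mem (h : AbC w u f) (h1 : u ≠ 1) : u ∉ qOf w := fun c => h1 (by
  simpa [h.uu] using (h.main (shOf h.pre)).2.1 u c rfl h.uu)

theorem exists_common (h : AbC w u f) (hc : IsConj w u) : ∃ a ∈ qOf u, a ∈ qOf w ∧ a ≠ 1 := by
  by_contra! k
  have pu := h.pre.qOf_of_conj (isConj_iff.1 hc)
  have hn := h.not_mem pu.ne_one
  let S := shOf pu
  have hf := mem_C.2 h.fu
  have hw := mem_C.2 h.uw.symm
  have h2 : w * w ∈ qOf u := h.pre.mul_self ▸ one_mem _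
  have c : ∀ a ∈ qOf u, a * w = w * a → S.N f (S.π a) = 0 := fun a ha c =>
    S.N_π_of_comm hf ha (commutatorElement_eq_one_iff_mul_comm.1 (k _ (S.comm_mem hf ha) (by
      rw [commutatorElement_def, mul_assoc, mul_assoc, ← mul_assoc a]
      exact mul_mem h.mem (conj_mem_of_mem_normalizer (h.pre.norm (mem_C.2 c)) (inv_mem h.mem)))))
  have c' : ∀ v, ∀ a ∈ qOf u, a * w = w * a → S.b (S.π a) (S.N f v) = 0 := fun v a ha d => by
    rw [S.b_comm, S.b_N hf, S.N_inv_eq_zero hf (c a ha d), map_zero]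
  have key : ∀ v, ∃ a ∈ qOf u, a * w = w * a ∧ S.π a = S.N f v := fun v => by
    by_cases hs : ∃ g ∈ qOf u, g * w * g⁻¹ = u * w
    · obtain ⟨g', g1, g2⟩ := hs
      obtain ⟨g, g3, g4⟩ := (h.main (shOf h.pre)).1
      have a := conj_eq_of_mem_C (pu.le_cent g1)
      have b := conj_eq_of_mem_C (h.pre.le_cent g3)
      have := ((h.conj g').conj g).conj g'
      rw [show g' * (g * (g' * w * g'⁻¹) * g⁻¹) * g'⁻¹ = u by
        rw [g2, ← conj_mul (b := g), g4, b, mul_assoc w, h.uw, ← mul_assoc w, h.pre.mul_self,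
          one_mul, a]] at this
      rw [show g' * (g * (g' * u * g'⁻¹) * g⁻¹) * g'⁻¹ = w by
        rw [a, g4, ← conj_mul, g2, a, mul_assoc, ← h.uw, ← mul_assoc, h.uu, one_mul]] at this
      exact (this.main S).2.2 _ (c' v)
    have ker : ∀ v, S.N w v = 0 → ∃ a ∈ qOf u, a * w = w * a ∧ S.π a = v := fun v hv => by
      obtain ⟨x, hx, rfl⟩ := S.π_surj v
      rw [S.N_π hw hx, S.π_eq_zero' (S.comm_mem hw hx)] at hv
      refine ⟨x, hx, (commutatorElement_eq_one_iff_mul_comm.1 (hv.resolve_right fun r =>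
        hs ⟨x, hx, ?_⟩)).symm, rfl⟩
      rw [h.uw, ← r, commutatorElement_def, h.pre.inv_eq, ← mul_assoc, ← mul_assoc, ← mul_assoc,
        h.pre.mul_self, one_mul]
    obtain ⟨y, hy⟩ := S.exists_N_eq hw h2 (v := S.N f v) fun y hy => by
      obtain ⟨a, ha, d, rfl⟩ := ker y hy
      exact c' v a ha d
    exact ker _ (hy ▸ S.N_N hw h2 y)
  refine hn (NW.zs ⟨pu, hc.symm, S.mem_of_N hw fun v => ?_, fun e => hn (e ▸ h.pre.mem)⟩)
  obtain ⟨a, ha, d, r⟩ := key v
  rw [← h.ff, S.N_mul hf hf, add_self', zero_add, ← r, c a ha d]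

end AbC

namespace Fam

variable [Finite G] (Φ : Fam z A)

omit [Finite G] in
theorem sq_or (h : PreLX (qOf z) z) (hu : IsConj z u) (hw : IsConj z w) (c : w * u = u * w)
    (hf : f ∈ qOf w) (d : f * u = u * f) : Φ.φ u f ^ 2 = 1 ∨ AbC w u f := by
  have pw := h.qOf_of_conj (isConj_iff.1 hw)
  rw [sq, ← Φ.mul hu d d]
  rcases pw.mem_iff.1 (pw.sq_mem f hf) with r | r
  · exact .inl (by rw [r, Φ.one hu])
  refine or_iff_not_imp_left.2 fun k => ⟨pw, c.symm, (h.qOf_of_conj (isConj_iff.1 hu)).mul_self,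
    fun a ha a1 b hb b1 => ?_, hf, d, r⟩
  refine (pw.comm_or ha hb).resolve_right fun e => k ?_
  rw [r, ← Φ.comm hu a1 b1, commutatorElement_def, e, mul_inv_cancel_right]

theorem sq_of_mem (h : PreLX (qOf z) z) (hu : IsConj z u) (hw : IsConj z w) (c : u ∈ qOf w)
    (hf : f ∈ qOf w) (d : f * u = u * f) : Φ.φ u f ^ 2 = 1 :=
  (Φ.sq_or h hu hw ((h.qOf_of_conj (isConj_iff.1 hw)).central u c).symm hf d).resolve_right
    fun k => k.not_mem (h.qOf_of_conj (isConj_iff.1 hu)).ne_one c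

theorem sq_nw (h : PreLX (qOf z) z) (hu : IsConj z u) {a c : G} (p : NW u a) (c1 : c * u = u * c)
    (c2 : c * a = a * c) : Φ.φ u c ^ 2 = Φ.φ a c ^ 2 := by
  obtain ⟨x, hx, e⟩ := p.mul.symm.exists_x
  rw [mul_assoc u, p.comm, ← mul_assoc u, p.pre.mul_self, one_mul] at e
  have d : x⁻¹ * c * x * u = u * (x⁻¹ * c * x) := by
    rw [show x⁻¹ * c * x * u = x⁻¹ * (c * (x * u * x⁻¹)) * x by group, e, c2, ← e]; group
  have d' := (Commute.mul_left d (Commute.inv_left c1)).eq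
  have := Φ.conj x hu d
  rw [e, show x * (x⁻¹ * c * x) * x⁻¹ = c by group, ← inv_mul_cancel_right (x⁻¹ * c * x) c,
    Φ.mul hu d' c1] at this
  rw [this, mul_pow, Φ.sq_of_mem h hu (hu.trans p.mul.cj) p.mul.zs (by
    rw [mul_assoc, mul_assoc, ← mul_assoc c]
    exact mul_mem (inv_mem hx) (conj_mem_of_mem_normalizer (p.mul.ps.norm
      (mem_C.2 (Commute.mul_right c1 c2).eq)) hx)) d', one_mul]

theorem sq_eq (h : PreLX (qOf z) z) (hu : IsConj z u) (hw : IsConj z w) (c : w * u = u * w)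
    (hf : f ∈ qOf w) (d : f * u = u * f) : Φ.φ u f ^ 2 = 1 := by
  refine (Φ.sq_or h hu hw c hf d).elim id fun k => ?_
  have pu := h.qOf_of_conj (isConj_iff.1 hu)
  have hn := k.not_mem pu.ne_one
  obtain ⟨a, a1, a2, a3⟩ := k.exists_common (hw.symm.trans hu)
  have a4 := (pu.mem_iff.1 (pu.sq_mem a a1)).resolve_right fun e => hn (e ▸ mul_mem a2 a2)
  have p : NW u (u * (u * a)) := NW.mul ⟨pu, (k.main (shOf k.pre)).2.1 a a2 (pu.central a a1) a4,
    mul_mem pu.mem a1, by simpa using a3⟩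
  rw [← mul_assoc, pu.mul_self, one_mul] at p
  have fa := k.ab f hf d a a2 (pu.central a a1)
  have fw := k.pre.central f hf
  rw [Φ.sq_nw h hu p d fa, ← Φ.sq_nw h hw ⟨k.pre, (hw.symm.trans hu).trans p.cj, a2,
    fun e => hn (e ▸ p.zs)⟩ fw fa, Φ.sq_of_mem h hw hw k.pre.mem hf fw]

/-- The square of a family. -/
def sq : Fam z A where
  φ w x := Φ.φ w x ^ 2
  mul h a b := by rw [Φ.mul h a b, mul_pow]
  conj g h a := by rw [Φ.conj g h a]

theorem sq_eq_one (hG : pResidual 2 G = ⊤) (h : PreLX (qOf z) z) {k : ℕ} {x : G}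
    (hx : x * z = z * x) (hk : x ^ 2 ^ k = 1) : Φ.φ z x ^ 2 = 1 :=
  Φ.sq.eq_one hG h (fun _ _ _ => Φ.sq_eq h) hx hk

end Fam

end Cfsg.Lib.LX
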